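import Mathlib
import Cfsg.Statements.S0500
import Cfsg.Agent.NE.Defs
import Cfsg.Agent.Fus.Alperin

/-!
Simple groups of sectional 2-rank at most four: the notions. See `stubs/Cfsg/Agent/GH/PLAN.md`.
-/

set_option autoImplicit false
set_option linter.unusedSectionVars false

namespace Cfsg.Agent.GH

open Cfsg.Agent.Inv.Fz Cfsg.Agent.NE Subgroup
open scoped commutatorElement

variable {G : Type*} [Group G]

/-- The conclusion of the theorem. -/
def Goal (G : Type*) [Group G] : Prop :=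
    Cfsg.PRankLE 2 2 G ∨ Cfsg.IsG2 G ∨ Cfsg.Is3D4 G ∨
      (∃ (F : Type) (_ : Field F) (_ : Fintype F), Odd (Fintype.card F) ∧ Nonempty (G ≃* Cfsg.PSp 2 F)) ∨
      Cfsg.IsRee G ∨
      (∃ (F : Type) (_ : Field F) (_ : Fintype F), Odd (Fintype.card F) ∧ Fintype.card F % 8 ≠ 1 ∧ Nonempty (G ≃* Matrix.ProjectiveSpecialLinearGroup (Fin 4) F)) ∨
      (∃ (F : Type) (_ : Field F) (_ : Fintype F) (q : ℕ), Fintype.card F = q ^ 2 ∧ Odd q ∧ q % 8 ≠ 7 ∧ Nonempty (G ≃* Cfsg.PSU 4 F q)) ∨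
      (∃ (F : Type) (_ : Field F) (_ : Fintype F), Fintype.card F % 4 = 3 ∧ Nonempty (G ≃* Matrix.ProjectiveSpecialLinearGroup (Fin 5) F)) ∨
      (∃ (F : Type) (_ : Field F) (_ : Fintype F) (q : ℕ), Fintype.card F = q ^ 2 ∧ q % 4 = 1 ∧ Nonempty (G ≃* Cfsg.PSU 5 F q)) ∨
      (∃ (F : Type) (_ : Field F) (_ : Fintype F), (Fintype.card F = 8 ∨ Fintype.card F = 16) ∧ Nonempty (G ≃* Matrix.ProjectiveSpecialLinearGroup (Fin 2) F)) ∨
      (∃ (F : Type) (_ : Field F) (_ : Fintype F), Fintype.card F = 4 ∧ Nonempty (G ≃* Matrix.ProjectiveSpecialLinearGroup (Fin 3) F)) ∨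
      (∃ (F : Type) (_ : Field F) (_ : Fintype F), Fintype.card F = 16 ∧ Nonempty (G ≃* Cfsg.PSU 3 F 4)) ∨
      (∃ (F : Type) (_ : Field F) (_ : Fintype F), Fintype.card F = 2 ∧ Nonempty (G ≃* Matrix.ProjectiveSpecialLinearGroup (Fin 4) F)) ∨
      (Cfsg.IsSuzuki G ∧ Nat.card G = 29120) ∨
      (∃ n : ℕ, 8 ≤ n ∧ n ≤ 11 ∧ Nonempty (G ≃* alternatingGroup (Fin n))) ∨
      Cfsg.IsM12 G ∨ Cfsg.IsM22 G ∨ Cfsg.IsM23 G ∨ Cfsg.IsJ1 G ∨ Cfsg.IsJ2 G ∨ Cfsg.IsJ3 G ∨ Cfsg.IsMcL G ∨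
      Cfsg.IsLy G

/-- No section of `S` is elementary abelian of order greater than `n`. -/
def Rk (n : ℕ) (S : Subgroup G) : Prop :=
  ∀ K H : Subgroup G, K ≤ H → H ≤ S → (∀ x ∈ H, x * x ∈ K) → Nat.card H ≤ n * Nat.card K

/-- `g` centralises `R`. -/
def Cz (g : G) (R : Subgroup G) : Prop := ∀ r ∈ R, g * r = r * g

/-- `T = [R, x]`. -/
def supp (R : Subgroup G) (x : G) : Subgroup G := ⁅R, zpowers x⁆

/-- `D = C_R(x)`. -/
def fix (R : Subgroup G) (x : G) : Subgroup G := R ⊓ centralizer {x}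

/-- The Frattini subgroup of a 2-group. -/
def phi (R : Subgroup G) : Subgroup G := closure {y | ∃ r ∈ R, y = r * r}

/-- Elementary abelian of order `n`. -/
structure El (n : ℕ) (A : Subgroup G) : Prop where
  card : Nat.card A = n
  sq : ∀ a ∈ A, a * a = 1

/-- Quaternion of order 8. -/
structure Q8 (V : Subgroup G) : Prop where
  card : Nat.card V = 8
  ex : ∃ z ∈ V, z ≠ 1 ∧ z * z = 1 ∧ ∀ v ∈ V, v = 1 ∨ v = z ∨ v * v = z

/-- `M` has index at most two in `S`, and `s M` is the other coset. -/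
def Ix (S M : Subgroup G) (s : G) : Prop := ∀ y ∈ S, y ∈ M ∨ s * y ∈ M

/-- `x` acts on the 2-group `R` with odd order. -/
structure Od (R : Subgroup G) (x : G) : Prop where
  two : IsPGroup 2 R
  xn : x ∈ normalizer (R : Set G)
  odd : ∃ m : ℕ, Odd m ∧ Cz (x ^ m) R

/-- `T` is homocyclic of rank two and exponent `2 ^ n`, generated by `t` and `t ^ x`. -/
structure Hom (T : Subgroup G) (x t : G) (n : ℕ) : Prop where
  ord : orderOf t = 2 ^ n
  eq : T = closure {t, x * t * x⁻¹}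
  comm : t * (x * t * x⁻¹) = x * t * x⁻¹ * t
  disj : zpowers t ⊓ zpowers (x * t * x⁻¹) = ⊥
  sum : t * (x * t * x⁻¹) * (x * (x * t * x⁻¹) * x⁻¹) = 1

/-- The image of `K` under a homomorphism defined on the subgroup `L`. -/
def im {Q : Type*} [Group Q] {L : Subgroup G} (f : L →* Q) (K : Subgroup G) : Subgroup Q :=
  (K.subgroupOf L).map f

/-- `x` acts on the 2-group `R` with order 3 or 5 and is inverted by `s`. -/
structure Tri (R : Subgroup G) (x s : G) : Prop where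
  two : IsPGroup 2 R
  xn : x ∈ normalizer (R : Set G)
  sn : s ∈ normalizer (R : Set G)
  s_not : s ∉ R
  ss : s * s ∈ R
  sx : x * (s * s) = s * s * x
  inv : Cz (s * x * s⁻¹ * x) R
  ord : Cz (x ^ 3) R ∨ Cz (x ^ 5) R
  ne : ¬ Cz x R

/-- A triple whose `R` has index two in the 2-group `P`. -/
structure Loc (P R : Subgroup G) (x s : G) : Prop where
  p : IsPGroup 2 P
  r4 : Rk 16 P
  le : R ≤ P
  tri : Tri R x s
  mem : s ∈ P
  ix : Ix P R s

/-- A critical (essential) subgroup of `S`. -/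
structure Crit (S R : Subgroup G) : Prop where
  le : R ≤ S
  ne : ¬ S ≤ R
  syl : IsSylIn 2 (S ⊓ normalizer (R : Set G)) (normalizer (R : Set G))
  cent : ∀ y ∈ S, Cz y R → y ∈ R
  se : ∃ M, Fus.LiftSPE 2 (normalizer (R : Set G)) (R ⊔ centralizer (R : Set G)) M

/-- A triple on a critical subgroup. -/
structure T1 (S R : Subgroup G) (x s : G) : Prop where
  crit : Crit S R
  tri : Tri R x s
  mem : s ∈ S

/-- The same with `|N_S(R) : R| = 2`. -/
structure T2 (S R : Subgroup G) (x s : G) : Prop extends T1 S R x s where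
  two : Ix (S ⊓ normalizer (R : Set G)) R s

/-- A basic triple: `R` has index two in `S` (type `E2`), or the support is a four-group or `Q₈` (good). -/
structure Bas (S R : Subgroup G) (x s : G) : Prop extends T2 S R x s where
  kind : Ix S R s ∨ El 4 (supp R x) ∨ Q8 (supp R x)

/-- A triple of type B whose action is a consequence of the action of `a` and `b`. -/
structure BD (S R : Subgroup G) (x a b : G) (Ra Rb : Subgroup G) : Prop where
  cardR : Nat.card R = 8 * Nat.card (⁅R, R⁆ : Subgroup G)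
  leA : supp R x ≤ Ra
  leB : supp R x ≤ Rb
  leAS : Ra ≤ S
  leBS : Rb ≤ S
  an : a ∈ normalizer (Ra : Set G)
  bn : b ∈ normalizer (Rb : Set G)
  aT : a ∈ normalizer (supp R x : Set G)
  bT : b ∈ normalizer (supp R x : Set G)
  cardA : Nat.card Ra = Nat.card R
  cardB : Nat.card Rb = Nat.card R
  derA : Nat.card Ra = 16 * Nat.card (⁅Ra, Ra⁆ : Subgroup G)
  derB : Nat.card Rb = 16 * Nat.card (⁅Rb, Rb⁆ : Subgroup G)
  act : ∃ t ∈ supp R x, Cz ((a * b * (a * b))⁻¹ * t * x) (supp R x)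
  gen : supp R x ≤ supp (supp R x) a ⊔ supp (supp R x) b
  drop : ∀ X : Subgroup G, R ≤ normalizer (X : Set G) → (∀ t ∈ supp R x, t ∈ X → a * t * a⁻¹ ∈ X) →
    (∀ t ∈ supp R x, t ∈ X → b * t * b⁻¹ ∈ X) → X ⊓ R ≤ supp R x ∨ supp R x ≤ X

/-- `A B` is a Sylow 2-subgroup of `L₃(4)` with centre `U`. -/
structure L34 (S A B U : Subgroup G) : Prop where
  leA : A ≤ S
  leB : B ≤ S
  elA : El 16 A
  elB : El 16 B
  elU : El 4 U
  UA : U ≤ A
  UB : U ≤ B
  comm : ∀ a ∈ A, ∀ b ∈ B, ⁅a, b⁆ ∈ U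
  nd : ∀ a ∈ A, ∀ b ∈ B, a * b = b * a → a ∈ U ∨ b ∈ U

/-- The involution of `⟨a⟩`. -/
abbrev zz (a : G) (n : ℕ) : G := a ^ 2 ^ (n - 1)

/-- An element of order four of `⟨a⟩`. -/
abbrev jj (a : G) (n : ℕ) : G := a ^ 2 ^ (n - 2)

/-- `Θ = ⟨a, b⟩` is dihedral (a four-group for `n = 1`) or quaternion of order `2 ^ (n + 1)`. -/
structure DQ (Θ : Subgroup G) (a b : G) (n : ℕ) : Prop where
  pos : 1 ≤ n
  ord : orderOf a = 2 ^ n
  inv : b * a * b⁻¹ = a⁻¹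
  not_mem : b ∉ zpowers a
  eq : Θ = closure {a, b}
  sq : b * b = 1 ∨ (2 ≤ n ∧ b * b = zz a n)

/-- `H = ⟨a, b⟩` is dihedral, semidihedral or quaternion of order `2 ^ (n + 1) ≥ 8`. -/
structure Mx (H : Subgroup G) (a b : G) (n : ℕ) : Prop where
  two : 2 ≤ n
  ord : orderOf a = 2 ^ n
  inv : b * a * b⁻¹ = a⁻¹ ∨ (3 ≤ n ∧ b * a * b⁻¹ = a⁻¹ * zz a n)
  not_mem : b ∉ zpowers a
  eq : H = closure {a, b}
  sq : b * b = 1 ∨ b * b = zz a n

/-- Dihedral of order at least 4, or semidihedral. -/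
def DS (H : Subgroup G) : Prop := El 4 H ∨ ∃ a b n, Mx H a b n ∧ b * b = 1

/-- `S = H ≀ ⟨σ⟩`. -/
structure Wr (S H : Subgroup G) (σ : G) : Prop where
  le : H ≤ S
  mem : σ ∈ S
  sq : σ * σ = 1
  comm : ∀ a ∈ H, ∀ b ∈ cj σ H, a * b = b * a
  disj : H ⊓ cj σ H = ⊥
  gen : S ≤ H ⊔ cj σ H ⊔ zpowers σ

/-- The local axioms of a good four-group `V = supp R x` in a 2-group `S`. -/
structure GD (S R : Subgroup G) (x s : G) : Prop where
  p : IsPGroup 2 S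
  r4 : Rk 16 S
  le : R ≤ S
  tri : Tri R x s
  mem : s ∈ S
  four : El 4 (supp R x)
  cen : ∀ y ∈ S, Cz y (supp R x) → y ∈ R
  two : Ix (S ⊓ normalizer (R : Set G)) R s

/-- A good four-group `⟨z, b⟩` in the dihedral group `Θ`. -/
structure TD (S R : Subgroup G) (x s : G) (Θ : Subgroup G) (a b : G) (n : ℕ) : Prop where
  t2 : T2 S R x s
  four : El 4 (supp R x)
  dq : DQ Θ a b n
  sq : b * b = 1
  eq : supp R x = closure {zz a n, b}

/-- A good `Q₈ = ⟨j, b⟩` in the quaternion group `Θ`. -/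
structure TQ (S R : Subgroup G) (x s : G) (Θ : Subgroup G) (a b : G) (n : ℕ) : Prop where
  t2 : T2 S R x s
  q8 : Q8 (supp R x)
  dq : DQ Θ a b n
  two : 2 ≤ n
  sq : b * b = zz a n
  eq : supp R x = closure {jj a n, b}

/-- Type X: `Θ` is normal in `S`, and `S` fuses the two classes outside `⟨a⟩`. -/
structure XT (S Θ : Subgroup G) (a b : G) : Prop where
  le : Θ ≤ S
  norm : S ≤ normalizer (Θ : Set G)
  na : S ≤ normalizer (zpowers a : Set G)
  swap : ∃ g ∈ S, g * b * g⁻¹ = b * a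

/-- What the types `Y×` and `Y∘` have in common: `Q = N_S(Θ)` has index two in `S`. -/
structure YB (S Θ : Subgroup G) (a b y : G) : Prop where
  le : Θ ≤ S
  mem : y ∈ S
  not_norm : y ∉ normalizer (Θ : Set G)
  ix : Ix S (normalizer (Θ : Set G)) y
  na : S ⊓ normalizer (Θ : Set G) ≤ normalizer (zpowers a : Set G)
  swap : ∃ g ∈ S, g ∈ normalizer (Θ : Set G) ∧ g * b * g⁻¹ = b * a
  k0 : ∀ g ∈ S, g ∈ normalizer (Θ : Set G) → ⁅g, b⁆ ∈ phi Θ → ⁅g, y * b * y⁻¹⁆ ∈ phi (cj y Θ) → g ∈ Θ ⊔ cj y Θ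

/-- Type `Y×`: `Y = Θ × Θ^y`. -/
structure YX (S Θ : Subgroup G) (a b y : G) : Prop extends YB S Θ a b y where
  comm : ∀ u ∈ Θ, ∀ v ∈ cj y Θ, u * v = v * u
  disj : Θ ⊓ cj y Θ = ⊥

/-- Type `Y∘`: the quaternion groups `Θ`, `Θ^y` have the same centre and commute modulo it. -/
structure YO (S Θ : Subgroup G) (a b : G) (n : ℕ) (y : G) : Prop extends YB S Θ a b y where
  comm : ∀ u ∈ Θ, ∀ v ∈ cj y Θ, ⁅u, v⁆ ∈ zpowers (zz a n)
  disj : Θ ⊓ cj y Θ = zpowers (zz a n)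
  jc : Cz (jj a n) (cj y Θ)
  z1 : ∀ g ∈ S, Cz g S ↔ g ∈ zpowers (zz a n)
  z2 : ∀ g ∈ S, (∀ h ∈ S, ⁅g, h⁆ ∈ zpowers (zz a n)) ↔ g ∈ closure {zz a n, jj a n * (y * jj a n * y⁻¹)}
  z3 : ∀ g ∈ S, (∀ h ∈ S, ⁅g, h⁆ ∈ closure {zz a n, jj a n * (y * jj a n * y⁻¹)}) ↔
    g ∈ closure {jj a n, y * jj a n * y⁻¹}
  card : Nat.card S = 2 ^ (2 * n + 3) ∨ Nat.card S = 2 ^ (2 * n + 4)

/-- A counterexample to the theorem with a Sylow 2-subgroup. -/
structure Ctx (G : Type*) [Group G] where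
  S : Subgroup G
  syl : IsSylIn 2 S ⊤
  simple : IsSimpleGroup G
  nc : ¬ IsMulCommutative G
  h4 : Cfsg.SectionalPRankLE 2 4 G
  ng : ¬ Goal G

/-- All basic triples are of type `E2`, and no support is `Q₈`. -/
def Ctx.AllE (c : Ctx G) : Prop := ∀ R x s, Bas c.S R x s → Ix c.S R s ∧ ¬ Q8 (supp R x)

end Cfsg.Agent.GH
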