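import Mathlib
import Cfsg.Agent.GH.Defs
import Cfsg.Agent.GT.Frattini

/-! Transport along conjugation and to quotients; first facts on the counterexample. See `stubs/Cfsg/Agent/GH/PLAN.md`. -/

set_option autoImplicit false
set_option linter.unusedSectionVars false

namespace Cfsg.Agent.GH

open Cfsg.Agent.Inv.Fz Cfsg.Agent.NE Subgroup
open scoped commutatorElement

variable {G Q : Type*} [Group G] [Finite G] [Group Q] [Finite Q] {S P R K L N T V A : Subgroup G} {x s g b : G} {n : ℕ}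

theorem Rk.mono (h : Rk n S) (hle : K ≤ S) : Rk n K := fun A B h1 h2 => h A B h1 (h2.trans hle)

namespace BsA

theorem norm_of_comm (h : ∀ y ∈ L, ⁅g, y⁆ ∈ L) : g ∈ normalizer (L : Set G) := mem_normalizer_of_conj_mem fun y hy => by
  simpa [commutatorElement_def] using mul_mem (h y hy) hy

theorem all_cj {p : G → Prop} : (∀ y ∈ cj g R, p y) ↔ ∀ y ∈ R, p (g * y * g⁻¹) :=
  ⟨fun h _ hy => h _ (conj_mem_cj.2 hy), fun h _ ⟨y, hy, e⟩ => e ▸ h y hy⟩

theorem cz_cj : Cz (g * x * g⁻¹) (cj g R) ↔ Cz x R :=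
  all_cj.trans (forall₂_congr fun _ _ => ⟨comm_of_conj, conj_comm g⟩)

theorem norm_cj : g * x * g⁻¹ ∈ normalizer (cj g R : Set G) ↔ x ∈ normalizer (R : Set G) := by
  rw [← cj_normalizer, conj_mem_cj]

theorem ix_cj (h : Ix S K s) (g : G) : Ix (cj g S) (cj g K) (g * s * g⁻¹) := all_cj.2 fun y hy => by
  rw [← conj_mul', conj_mem_cj, conj_mem_cj]; exact h y hy

theorem ord_cj (g x : G) : orderOf (g * x * g⁻¹) = orderOf x := (MulAut.conj g).orderOf_eq x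

theorem cj_pair (g x y : G) : cj g (closure {x, y}) = closure {g * x * g⁻¹, g * y * g⁻¹} := by
  rw [cj_closure, Set.image_pair]

theorem cj_NS (hg : g ∈ normalizer (S : Set G)) :
    cj g (S ⊓ normalizer (R : Set G)) = S ⊓ normalizer (cj g R : Set G) := by
  rw [cj_inf, cj_normalizer, cj_eq_iff.2 hg]

theorem lift_cj {I M : Subgroup G} (h : Fus.LiftSPE 2 A I M) (g : G) : Fus.LiftSPE 2 (cj g A) (cj g I) (cj g M) := by
  obtain ⟨x, h1, h2, h3⟩ := h.ex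
  refine ⟨cj_mono h.le, lt_of_le_of_ne (cj_mono h.lt.le) fun e => h.lt.ne (cj_inj.1 e),
    ⟨_, conj_mem_cj.2 h1, mt conj_mem_cj.1 h2, by rwa [conj_pow, conj_mem_cj]⟩,
    all_cj.2 fun k hk => all_cj.2 fun y hy => ?_⟩
  rw [conj_pow, conj_inv, conj_mul, conj_mul, conj_mem_cj, conj_mem_cj, conj_mem_cj, conj_mem_cj]
  exact h.mem_of_conj k hk y hy

end BsA

open BsA

/-- An element with square in `K` centralising `L / K` of the maximal order lies in `L`. -/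
theorem Rk.five (h : Rk n S) (hL : L ≤ S) (hK : K ≤ L) (h2 : ∀ y ∈ L, y * y ∈ K) (hc : Nat.card L = n * Nat.card K)
    (hg : g ∈ S) (g2 : g * g ∈ K) (hx : ∀ y ∈ L, ⁅g, y⁆ ∈ K) : g ∈ L := by
  by_contra h1
  have hn := norm_of_comm fun y hy => hK (hx y hy)
  have := h K (ext L g) (hK.trans (le_ext _ _)) (ext_le.2 ⟨hL, hg⟩) fun y hy => by
    rcases (mem_ext hn (hK g2)).1 hy with e | e
    · exact h2 y e
    · have := mul_mem (mul_mem (inv_mem g2) (hx _ e)) (h2 _ e)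
      rwa [show (g * g)⁻¹ * ⁅g, g * y⁆ * (g * y * (g * y)) = y * y by rw [commutatorElement_def]; group] at this
  rw [card_ext hn (hK g2) h1, ← hc] at this
  have := Nat.card_pos (α := L)
  omega

/-- If `A` has a central-type factor `A / L` of order 4 and commutes with `K` modulo `L`, then `K` has sectional rank two
modulo `A`. -/
theorem Rk.four (h : Rk 16 S) (hA : A ≤ S) (hL : L ≤ A) (h2 : ∀ y ∈ A, y * y ∈ L) (hc : Nat.card A = 4 * Nat.card L)
    (hK : K ≤ S) (hd : A ⊓ K = ⊥) (hcomm : ∀ y ∈ A, ∀ k ∈ K, ⁅k, y⁆ ∈ L) : Rk 4 K := fun K0 H h1 hH hs => by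
  have nA : H ≤ normalizer (A : Set G) := fun k hk => norm_of_comm fun y hy => hL (hcomm y hy k (hH hk))
  have nL : K0 ≤ normalizer (L : Set G) := fun k hk => norm_of_comm fun y hy => hcomm y (hL hy) k (hH (h1 hk))
  have := h (K0 ⊔ L) (H ⊔ A) (sup_le_sup h1 hL) (sup_le (hH.trans hK) hA) fun y hy => by
    obtain ⟨k, hk, a, ha, rfl⟩ := (mem_sup_iff_of_le_normalizer nA).1 hy
    have : k * k * (⁅k⁻¹, a⁆ * (a * a)) ∈ K0 ⊔ L :=
      mul_mem_sup (hs k hk) (mul_mem (hcomm a ha _ (hH (inv_mem hk))) (h2 a ha))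
    rwa [show k * k * (⁅k⁻¹, a⁆ * (a * a)) = k * a * (k * a) by rw [commutatorElement_def]; group] at this
  rw [GT.PG.card_sup_of_inf_eq_bot nA (le_bot_iff.1 (hd ▸ le_inf inf_le_right (inf_le_left.trans hH))),
    GT.PG.card_sup_of_inf_eq_bot nL (le_bot_iff.1 (hd ▸ le_inf (inf_le_right.trans hL) (inf_le_left.trans (h1.trans hH)))),
    hc] at this
  exact Nat.le_of_mul_le_mul_right (c := 4 * Nat.card L) (this.trans_eq (by ring)) (by have := Nat.card_pos (α := L); omega)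

theorem mem_phi (hr : g ∈ R) : g * g ∈ phi R := subset_closure ⟨g, hr, rfl⟩
theorem phi_le : phi R ≤ R := (closure_le _).2 fun _ ⟨_, hr, e⟩ => e ▸ mul_mem hr hr
theorem phi_le_iff : phi R ≤ K ↔ ∀ r ∈ R, r * r ∈ K :=
  ⟨fun h _ hr => h (mem_phi hr), fun h => (closure_le _).2 fun _ ⟨r, hr, e⟩ => e ▸ h r hr⟩
theorem comm_mem_phi (hg : g ∈ R) (hb : b ∈ R) : ⁅g, b⁆ ∈ phi R := by
  have := mul_mem (mul_mem (mem_phi hg) (mem_phi (mul_mem (inv_mem hg) hb))) (mem_phi (inv_mem hb))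
  rwa [show g * g * (g⁻¹ * b * (g⁻¹ * b)) * (b⁻¹ * b⁻¹) = ⁅g, b⁆ by rw [commutatorElement_def]; group] at this
theorem phi_mono (h : K ≤ R) : phi K ≤ phi R := phi_le_iff.2 fun _ hr => mem_phi (h hr)
theorem cj_phi (g : G) (R : Subgroup G) : cj g (phi R) = phi (cj g R) := by
  refine le_antisymm ?_ (phi_le_iff.2 (all_cj.2 fun y hy => by rw [← conj_mul', conj_mem_cj]; exact mem_phi hy))
  rw [phi, cj_closure, closure_le]
  rintro _ ⟨_, ⟨r, hr, rfl⟩, rfl⟩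
  simpa only [conj_mul', SetLike.mem_coe] using mem_phi (conj_mem_cj.2 hr)
theorem norm_phi (hg : g ∈ normalizer (R : Set G)) : g ∈ normalizer (phi R : Set G) :=
  cj_eq_iff.1 (by rw [cj_phi, cj_eq_iff.2 hg])
/-- A subgroup that covers `R / Φ(R)` is `R`. -/
theorem le_of_sup_phi (hR : IsPGroup 2 R) (hK : K ≤ R) (h : R ≤ K ⊔ phi R) : R ≤ K :=
  (GT.eq_of_sup_of_le_map_frattini hK (phi_le_iff.2 fun r hr =>
    ⟨_, GT.PG.pow_mem_frattini hR ⟨r, hr⟩, by simp [sq]⟩) h).ge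

theorem Ix.mul_mem (h : Ix S K s) {y z : G} (hy : y ∈ S) (hz : z ∈ S) (h1 : y ∉ K) (h2 : z ∉ K) : y * z ∈ K := by
  simpa [mul_assoc] using K.mul_mem (inv_mem ((h _ (inv_mem hy)).resolve_left (mt inv_mem_iff.1 h1)))
    ((h z hz).resolve_left h2)
theorem Ix.norm (h : Ix S K s) (hK : K ≤ S) (hs : s ∈ S) : S ≤ normalizer (K : Set G) := fun g hg => by
  by_cases h1 : g ∈ K
  · exact le_normalizer h1
  · exact mem_normalizer_of_conj_mem fun k hk => h.mul_mem (S.mul_mem hg (hK hk)) (inv_mem hg)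
      (mt (mul_mem_cancel_right hk).1 h1) (mt inv_mem_iff.1 h1)
theorem Ix.card (h : Ix S K s) (hK : K ≤ S) (hs : s ∈ S) (h1 : s ∉ K) : Nat.card S = 2 * Nat.card K := by
  have h2 := h.mul_mem hs hs h1 h1
  rw [← card_ext (h.norm hK hs hs) h2 h1,
    le_antisymm (ext_le.2 ⟨hK, hs⟩) fun y hy => (mem_ext (h.norm hK hs hs) h2).2 (h y hy)]
theorem ix_of_card (hK : K ≤ S) (hs : s ∈ S) (h1 : s ∉ K) (h : Nat.card S = 2 * Nat.card K) : Ix S K s := fun y hy => by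
  have e : (K.subgroupOf S).index = 2 := Nat.eq_of_mul_eq_mul_left (Nat.card_pos (α := K))
    ((card_mul_relIndex hK).trans (h.trans (mul_comm _ _)))
  by_cases h2 : y ∈ K
  · exact .inl h2
  · exact .inr ((mul_mem_iff_of_index_two e (a := ⟨s, hs⟩) (b := ⟨y, hy⟩)).2 (iff_of_false h1 h2))

theorem cj_supp (g : G) (R : Subgroup G) (x : G) : cj g (supp R x) = supp (cj g R) (g * x * g⁻¹) := by
  rw [supp, supp, ← cj_zpowers]; exact map_commutator _ _ _
theorem cj_fix (g : G) (R : Subgroup G) (x : G) : cj g (fix R x) = fix (cj g R) (g * x * g⁻¹) := by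
  rw [fix, fix, cj_inf, cj_centralizer_singleton]
theorem Rk.cj (h : Rk n S) (g : G) : Rk n (cj g S) := fun K H h1 h2 h3 => by
  have := h (Inv.Fz.cj g⁻¹ K) (Inv.Fz.cj g⁻¹ H) (cj_mono h1) (by simpa only [cj_inv_cj] using cj_mono (g := g⁻¹) h2)
    (all_cj.2 fun y hy => by rw [← conj_mul', conj_mem_cj]; exact h3 y hy)
  rwa [card_cj, card_cj] at this
theorem El.cj (h : El n A) (g : G) : El n (cj g A) :=
  ⟨(card_cj g A).trans h.card, all_cj.2 fun y hy => Rec.conj_sq (h.sq y hy)⟩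
theorem Q8.cj (h : Q8 V) (g : G) : Q8 (cj g V) := by
  obtain ⟨z, h1, h2, h3, h4⟩ := h.ex
  refine ⟨(card_cj g V).trans h.card, _, conj_mem_cj.2 h1, mt Rec.conj_eq_one.1 h2, Rec.conj_sq h3,
    all_cj.2 fun y hy => ?_⟩
  rw [← conj_mul', conj_inj, conj_inj, Rec.conj_eq_one]
  exact h4 y hy
theorem Tri.cj (h : Tri R x s) (g : G) : Tri (cj g R) (g * x * g⁻¹) (g * s * g⁻¹) where
  two := isPGroup_cj h.two g
  xn := norm_cj.2 h.xn
  sn := norm_cj.2 h.sn
  s_not := mt conj_mem_cj.1 h.s_not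
  ss := by rw [← conj_mul', conj_mem_cj]; exact h.ss
  sx := by rw [← conj_mul' g s]; exact conj_comm g h.sx
  inv := by rw [conj_inv, conj_mul, conj_mul, conj_mul, cz_cj]; exact h.inv
  ord := by rw [conj_pow, conj_pow, cz_cj, cz_cj]; exact h.ord
  ne := mt cz_cj.1 h.ne
theorem Crit.cj (h : Crit S R) (hg : g ∈ normalizer (S : Set G)) : Crit S (cj g R) := by
  have e := cj_eq_iff.2 hg
  obtain ⟨M, hM⟩ := h.se
  refine ⟨e ▸ cj_mono h.le, fun h' => h.ne (cj_le_cj.1 (e.trans_le h')), ?_, ?_, Inv.Fz.cj g M, ?_⟩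
  · rw [← cj_NS hg, ← cj_normalizer]; exact h.syl.cj g
  · rw [← e, all_cj]
    exact fun y hy hc => conj_mem_cj.2 (h.cent y hy (cz_cj.1 hc))
  · rw [← cj_normalizer, ← cj_centralizer, ← cj_sup]; exact lift_cj hM g
theorem T1.cj (h : T1 S R x s) (hg : g ∈ normalizer (S : Set G)) : T1 S (cj g R) (g * x * g⁻¹) (g * s * g⁻¹) :=
  ⟨h.crit.cj hg, h.tri.cj g, (conj_mem_norm hg).2 h.mem⟩
theorem T2.cj (h : T2 S R x s) (hg : g ∈ normalizer (S : Set G)) : T2 S (cj g R) (g * x * g⁻¹) (g * s * g⁻¹) :=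
  ⟨h.toT1.cj hg, cj_NS hg ▸ ix_cj h.two g⟩
theorem Bas.cj (h : Bas S R x s) (hg : g ∈ normalizer (S : Set G)) : Bas S (cj g R) (g * x * g⁻¹) (g * s * g⁻¹) :=
  ⟨h.toT2.cj hg, h.kind.imp (fun k => by simpa only [cj_eq_iff.2 hg] using ix_cj k g)
    (Or.imp (fun k => cj_supp g R x ▸ k.cj g) fun k => cj_supp g R x ▸ k.cj g)⟩
theorem GD.cj (h : GD S R x s) (hg : g ∈ normalizer (S : Set G)) : GD S (cj g R) (g * x * g⁻¹) (g * s * g⁻¹) := by
  have e := cj_eq_iff.2 hg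
  refine ⟨h.p, h.r4, e ▸ cj_mono h.le, h.tri.cj g, (conj_mem_norm hg).2 h.mem, cj_supp g R x ▸ h.four.cj g, ?_,
    cj_NS hg ▸ ix_cj h.two g⟩
  rw [← e, all_cj, ← cj_supp]
  exact fun y hy hc => conj_mem_cj.2 (h.cen y hy (cz_cj.1 hc))
theorem DQ.cj {Θ : Subgroup G} {a : G} (h : DQ Θ a b n) (g : G) : DQ (cj g Θ) (g * a * g⁻¹) (g * b * g⁻¹) n where
  pos := h.pos
  ord := (ord_cj g a).trans h.ord
  inv := by rw [conj_inv, conj_mul, conj_mul, h.inv, conj_inv]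
  not_mem := by rw [← cj_zpowers, conj_mem_cj]; exact h.not_mem
  eq := by rw [h.eq, cj_pair]
  sq := h.sq.imp Rec.conj_sq (And.imp_right fun e => by rw [conj_mul, e, zz, zz, conj_pow])
theorem TD.cj {Θ : Subgroup G} {a : G} (h : TD S R x s Θ a b n) (hg : g ∈ normalizer (S : Set G)) :
    TD S (cj g R) (g * x * g⁻¹) (g * s * g⁻¹) (cj g Θ) (g * a * g⁻¹) (g * b * g⁻¹) n :=
  ⟨h.t2.cj hg, cj_supp g R x ▸ h.four.cj g, h.dq.cj g, Rec.conj_sq h.sq, by
    rw [← cj_supp, h.eq, cj_pair, zz, zz, conj_pow]⟩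
theorem TQ.cj {Θ : Subgroup G} {a : G} (h : TQ S R x s Θ a b n) (hg : g ∈ normalizer (S : Set G)) :
    TQ S (cj g R) (g * x * g⁻¹) (g * s * g⁻¹) (cj g Θ) (g * a * g⁻¹) (g * b * g⁻¹) n :=
  ⟨h.t2.cj hg, cj_supp g R x ▸ h.q8.cj g, h.dq.cj g, h.two, by rw [conj_mul, h.sq, zz, zz, conj_pow], by
    rw [← cj_supp, h.eq, cj_pair, jj, jj, conj_pow]⟩
theorem XT.cj {Θ : Subgroup G} {a : G} (h : XT S Θ a b) (hg : g ∈ normalizer (S : Set G)) :
    XT S (cj g Θ) (g * a * g⁻¹) (g * b * g⁻¹) := by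
  have e := cj_eq_iff.2 hg
  obtain ⟨k, hk, e'⟩ := h.swap
  refine ⟨e ▸ cj_mono h.le, ?_, ?_, _, (conj_mem_norm hg).2 hk, by rw [conj_inv, conj_mul, conj_mul, e', conj_mul]⟩
  · rw [← cj_normalizer, ← e]; exact cj_mono h.norm
  · rw [← cj_zpowers, ← cj_normalizer, ← e]; exact cj_mono h.na

namespace BsA

variable {Θ : Subgroup G} {a : G} (h : DQ Θ a b n)
include h

theorem bn : b⁻¹ ∈ normalizer (zpowers a : Set G) := inv_mem (mem_normalizer_of_conj_mem fun _ hy => by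
  rw [inverts_zpowers h.inv hy]; exact inv_mem hy)

theorem bb : b * b ∈ zpowers a := by
  rcases h.sq with e | ⟨-, e⟩ <;> rw [e]
  exacts [one_mem _, pow_mem (mem_zpowers a) _]

theorem bb' : b⁻¹ * b⁻¹ ∈ zpowers a := mul_inv_rev b b ▸ inv_mem (bb h)

theorem eq_ext : Θ = ext (zpowers a) b⁻¹ := by
  rw [h.eq, NE.ext, zpowers_inv, zpowers_eq_closure, zpowers_eq_closure, ← Subgroup.closure_union]; rfl

theorem am : a ∈ Θ := h.eq ▸ subset_closure (by simp)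

end BsA

theorem DQ.mem {Θ : Subgroup G} {a : G} (h : DQ Θ a b n) : g ∈ Θ ↔ g ∈ zpowers a ∨ b⁻¹ * g ∈ zpowers a :=
  eq_ext h ▸ mem_ext (bn h) (bb' h)
theorem DQ.card {Θ : Subgroup G} {a : G} (h : DQ Θ a b n) : Nat.card Θ = 2 ^ (n + 1) := by
  rw [eq_ext h, card_ext (bn h) (bb' h) (mt inv_mem_iff.1 h.not_mem), Nat.card_zpowers, h.ord, pow_succ']
theorem DQ.phi_eq {Θ : Subgroup G} {a : G} (h : DQ Θ a b n) : phi Θ = zpowers (a * a) := by
  refine le_antisymm (phi_le_iff.2 fun r hr => ?_) (zpowers_le.2 (mem_phi (am h)))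
  rcases h.mem.1 hr with ⟨i, rfl⟩ | hr
  · exact ⟨i, (Commute.refl a).mul_zpow i⟩
  · have e : r * r = b * b := by
      calc r * r = b * (b⁻¹ * r) * b⁻¹ * (b * b * (b⁻¹ * r)) := by group
        _ = _ := by
          rw [inverts_zpowers h.inv hr, comm_zpowers (comm_zpowers rfl (bb h)).symm hr, inv_mul_cancel_left]
    rcases h.sq with e' | ⟨h2, e'⟩ <;> rw [e, e']
    · exact one_mem _
    · rw [zz, show n - 1 = n - 2 + 1 by omega, pow_succ', pow_mul, pow_two]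
      exact pow_mem (mem_zpowers _) _
theorem DQ.zz_ne {Θ : Subgroup G} {a : G} (h : DQ Θ a b n) : zz a n ≠ 1 ∧ zz a n * zz a n = 1 ∧ Cz (zz a n) Θ := by
  have hp := h.pos
  have m : zz a n ∈ zpowers a := pow_mem (mem_zpowers a) _
  have h2 : zz a n * zz a n = 1 := by
    rw [← pow_two, ← pow_mul, ← pow_succ, show n - 1 + 1 = n by omega, ← h.ord, pow_orderOf_eq_one]
  refine ⟨pow_ne_one_of_lt_orderOf (by positivity) (h.ord ▸ Nat.pow_lt_pow_right (by norm_num) (by omega)), h2,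
    fun r hr => ?_⟩
  have ca : ∀ r ∈ zpowers a, Commute (zz a n) r := fun r hr => comm_zpowers (comm_zpowers rfl m).symm hr
  rcases h.mem.1 hr with hr | hr
  · exact ca r hr
  · have cb : Commute (zz a n) b := (comm_of_conj_eq ((inverts_zpowers h.inv m).trans (inv_of_sq h2))).symm
    simpa only [mul_inv_cancel_left] using (cb.mul_right (ca _ hr)).eq
/-- A nontrivial subgroup of `⟨a⟩` contains the involution. -/
theorem zz_mem {a : G} (h : orderOf a = 2 ^ n) (hK : K ≤ zpowers a) (h1 : K ≠ ⊥) : zz a n ∈ K := by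
  obtain ⟨⟨y, hy⟩, y1⟩ := ne_bot_iff_exists_ne_one.1 h1
  have ha : a ^ 2 ^ n = 1 := h ▸ pow_orderOf_eq_one a
  obtain ⟨e, he, e1, e2⟩ := exists_pow_two (isPGroup_zpowers ha) (hK hy) fun e => y1 (Subtype.ext e)
  replace he := zpowers_le.2 hy he
  obtain ⟨i, rfl⟩ := mem_powers_iff_mem_zpowers.2 (hK he)
  dsimp only at he e1 e2
  rw [← pow_add, ← orderOf_dvd_iff_pow_eq_one, h, ← mul_two] at e2
  rcases n with _ | n
  · exact (e1 (by rw [show a = 1 by simpa using ha, one_pow])).elim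
  obtain ⟨j, rfl⟩ := Nat.dvd_of_mul_dvd_mul_right two_pos (pow_succ 2 n ▸ e2)
  have h2 : (a ^ 2 ^ n) ^ 2 = 1 := by rw [← pow_mul, ← pow_succ, ha]
  rw [pow_mul, pow_eq_pow_mod j h2] at he e1
  rcases Nat.mod_two_eq_zero_or_one j with e | e <;> rw [e] at he e1
  · exact (e1 (pow_zero _)).elim
  · rwa [pow_one] at he
/-- A nontrivial normal subgroup of `Θ` contains `z` when `|Θ| ≥ 8`. -/
theorem DQ.zz_mem_normal {Θ : Subgroup G} {a : G} (h : DQ Θ a b n) (h2 : 2 ≤ n) (hK : K ≤ Θ)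
    (hn : Θ ≤ normalizer (K : Set G)) (h1 : K ≠ ⊥) : zz a n ∈ K := by
  obtain ⟨⟨y, hy⟩, y1⟩ := ne_bot_iff_exists_ne_one.1 h1
  refine (zz_mem (K := K ⊓ zpowers a) h.ord inf_le_right fun e => ?_).1
  rcases h.mem.1 (hK hy) with hr | hr
  · exact y1 (Subtype.ext (mem_bot.1 (e.le ⟨hy, hr⟩)))
  · have e1 : a * y * a⁻¹ * y⁻¹ = a ^ 2 := by
      calc _ = a * (b * (b⁻¹ * y * a⁻¹ * (b⁻¹ * y)⁻¹) * b⁻¹) := by group
        _ = _ := by
          rw [conj_eq_of_comm (comm_zpowers (Commute.refl a).inv_left hr).symm, ← conj_inv, h.inv, inv_inv, pow_two]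
    exact pow_ne_one_of_lt_orderOf two_ne_zero (h.ord ▸ (by norm_num : 2 < 2 ^ 2).trans_le
      (Nat.pow_le_pow_right two_pos h2)) (mem_bot.1 (e.le ⟨e1 ▸ K.mul_mem ((conj_mem_norm (hn (am h))).2 hy) (inv_mem hy),
        pow_mem (mem_zpowers a) 2⟩))

section
variable {f : L →* Q} (hf : ∀ l : L, f l = 1 ↔ (l : G) ∈ N) (hN : N ≤ L)
include hf hN

theorem mem_im (hK : N ≤ K) (l : L) : f l ∈ im f K ↔ (l : G) ∈ K :=
  ⟨fun ⟨k, hk, e⟩ => by simpa using K.mul_mem hk (hK ((hf (k⁻¹ * l)).1 (by rw [map_mul, map_inv, e, inv_mul_cancel]))),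
    fun h => ⟨l, h, rfl⟩⟩

namespace BsA

theorem card_im' (h2 : K ≤ L) : Nat.card K = Nat.card (N ⊓ K : Subgroup G) * Nat.card (im f K) := by
  rw [im, ← relIndex_ker, show f.ker = N.subgroupOf L from Subgroup.ext hf, relIndex_subgroupOf h2, ← inf_relIndex_right,
    card_mul_relIndex inf_le_right]

omit hf hN in
theorem cz_im {x : L} (h : Cz (x : G) R) : Cz (f x) (im f R) := by
  rintro _ ⟨r, hr, rfl⟩
  rw [← map_mul, ← map_mul, show x * r = r * x from Subtype.ext (h r hr)]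

omit hf hN in
theorem norm_im {x : L} (h2 : R ≤ L) (h : (x : G) ∈ normalizer (R : Set G)) : f x ∈ normalizer (im f R : Set Q) :=
  le_normalizer_map f (mem_map_of_mem f ((subgroupOf_normalizer_eq h2).le h))

end BsA

theorem card_im (h1 : N ≤ K) (h2 : K ≤ L) : Nat.card K = Nat.card N * Nat.card (im f K) := by
  rw [card_im' hf hN h2, inf_eq_left.2 h1]
theorem im_le_im (h1 : N ≤ R) (h2 : K ≤ L) : im f K ≤ im f R ↔ K ≤ R :=
  ⟨fun h k hk => (mem_im hf hN h1 ⟨k, h2 hk⟩).1 (h ⟨_, hk, rfl⟩), fun h => map_mono (subgroupOf_mono L h)⟩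
theorem Rk.im (h : Rk n S) (h2 : S ≤ L) : Rk n (im f S) := fun K H h1 h3 h4 => by
  have k : ∀ X : Subgroup Q, X ≤ GH.im f S → Nat.card (S ⊓ (X.comap f).map L.subtype : Subgroup G) =
      Nat.card (N ⊓ S : Subgroup G) * Nat.card X := fun X hX => by
    rw [card_im' hf hN (inf_le_left.trans h2), ← inf_assoc, inf_eq_left.2 fun y hy =>
      ⟨⟨y, hN hy.1⟩, show f _ ∈ X from ((hf ⟨y, hN hy.1⟩).2 hy.1).symm ▸ one_mem X, rfl⟩]
    congr 3
    refine le_antisymm ?_ fun y hy => ?_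
    · rintro _ ⟨l, ⟨-, k, hk, e⟩, rfl⟩
      exact (Subtype.ext e : k = l) ▸ hk
    · obtain ⟨l, hl, rfl⟩ := hX hy
      exact ⟨l, ⟨hl, l, hy, rfl⟩, rfl⟩
  have := h (S ⊓ (K.comap f).map L.subtype) (S ⊓ (H.comap f).map L.subtype)
    (inf_le_inf_left S (map_mono (comap_mono h1))) inf_le_left (by
      rintro _ ⟨hs, l, hl, rfl⟩
      exact ⟨S.mul_mem hs hs, l * l, show f _ ∈ K from map_mul f l l ▸ h4 _ hl, rfl⟩)
  rw [k K (h1.trans h3), k H h3, mul_left_comm] at this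
  exact Nat.le_of_mul_le_mul_left this Nat.card_pos
theorem pgroup_im (h : IsPGroup 2 S) : IsPGroup 2 (im f S) := h.comap_subtype.map f
theorem supp_im (h : R ≤ L) (x : L) : supp (im f R) (f x) = im f (supp R x) := by
  have : (supp R x).subgroupOf L = ⁅R.subgroupOf L, zpowers x⁆ := by
    rw [← comap_map_eq_self_of_injective L.subtype_injective ⁅R.subgroupOf L, zpowers x⁆, map_commutator,
      map_subgroupOf_eq_of_le h, MonoidHom.map_zpowers]
    rfl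
  rw [im, im, this, map_commutator, MonoidHom.map_zpowers, supp]
theorem Tri.im {x s : L} (h : Tri R x s) (h1 : N ≤ R) (h2 : R ≤ L) (h3 : ¬ supp R x ≤ N) :
    Tri (im f R) (f x) (f s) where
  two := pgroup_im hf hN h.two
  xn := norm_im h2 h.xn
  sn := norm_im h2 h.sn
  s_not := mt (mem_im hf hN h1 s).1 h.s_not
  ss := map_mul f s s ▸ (mem_im hf hN h1 (s * s)).2 h.ss
  sx := by simpa only [map_mul] using congrArg f (show x * (s * s) = s * s * x from Subtype.ext h.sx)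
  inv := by simpa only [map_mul, map_inv] using cz_im (f := f) (x := s * x * s⁻¹ * x) h.inv
  ord := h.ord.imp (fun k => map_pow f x 3 ▸ cz_im (x := x ^ 3) k) fun k => map_pow f x 5 ▸ cz_im (x := x ^ 5) k
  ne := fun k => h3 (commutator_le.2 fun r hr _ ⟨i, e⟩ => e ▸ (hf ⁅(⟨r, h2 hr⟩ : L), x ^ i⁆).1 (by
    rw [map_commutatorElement, map_zpow, commutatorElement_eq_one_iff_commute]
    exact (show Commute (f x) _ from k _ ⟨⟨r, h2 hr⟩, hr, rfl⟩).symm.zpow_right i))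
theorem Loc.im {x s : L} (h : Loc P R x s) (h1 : N ≤ R) (h2 : P ≤ L) (h3 : ¬ supp R x ≤ N) :
    Loc (im f P) (im f R) (f x) (f s) where
  p := pgroup_im hf hN h.p
  r4 := h.r4.im hf hN h2
  le := map_mono (subgroupOf_mono L h.le)
  tri := h.tri.im hf hN h1 (h.le.trans h2) h3
  mem := ⟨s, h.mem, rfl⟩
  ix := by
    rintro _ ⟨y, hy, rfl⟩
    exact (h.ix y hy).imp (fun k => ⟨y, k, rfl⟩) fun k => ⟨s * y, k, map_mul f s y⟩

end

/-- The quotient of `N_G(N)` by `N`. -/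
theorem exists_quo (N : Subgroup G) : ∃ f : normalizer (N : Set G) →*
    normalizer (N : Set G) ⧸ N.subgroupOf (normalizer (N : Set G)),
    Function.Surjective f ∧ ∀ l : normalizer (N : Set G), f l = 1 ↔ (l : G) ∈ N :=
  ⟨QuotientGroup.mk' _, QuotientGroup.mk'_surjective _, fun l => QuotientGroup.eq_one_iff l⟩

theorem T2.loc (h : T2 S R x s) (hS : IsPGroup 2 S) (h4 : Rk 16 S) : Loc (S ⊓ normalizer (R : Set G)) R x s :=
  ⟨hS.to_le inf_le_left, h4.mono inf_le_left, le_inf h.crit.le le_normalizer, h.tri, ⟨h.mem, h.tri.sn⟩, h.two⟩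
theorem T1.loc (h : T1 S R x s) (hS : IsPGroup 2 S) (h4 : Rk 16 S) (hi : Ix S R s) : Loc S R x s :=
  ⟨hS, h4, h.crit.le, h.tri, h.mem, hi⟩
theorem T1.bas (h : T1 S R x s) (hi : Ix S R s) : Bas S R x s := ⟨⟨h, fun y hy => hi y hy.1⟩, .inl hi⟩

namespace Ctx
variable (c : Ctx G)
include c

theorem pS : IsPGroup 2 c.S := c.syl.isPGroup
theorem r4' (K : Subgroup G) : Rk 16 K := fun A B h1 _ h3 => by
  rw [← card_mul_relIndex h1, mul_comm]
  exact Nat.mul_le_mul_right _ (FG.SR.relIndex_le_two c.h4 fun x hx => sq x ▸ h3 x hx)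
theorem r4 : Rk 16 c.S := c.r4' _
theorem noIdx : NoIdx G :=
  have := c.simple
  noIdx_of_simple fun e => c.nc (isCyclic_of_prime_card e).isMulCommutative
theorem exists_sylow : ∃ P : Sylow 2 G, (P : Subgroup G) = c.S := ⟨c.syl.toSylowTop, rfl⟩
theorem rank3 : ∃ E ≤ c.S, El 8 E := by
  have : ¬ Cfsg.PRankLE 2 2 G := fun h => c.ng (.inl h)
  obtain ⟨A, -, h1, h2⟩ : ∃ A : Subgroup G, IsMulCommutative A ∧ (∀ a ∈ A, a ^ 2 = 1) ∧ 2 ^ 2 < Nat.card A := by
    simpa only [Cfsg.PRankLE, not_forall, not_le, exists_prop] using this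
  have hA : IsPGroup 2 A := isPGroup_of_sq fun a ha => sq a ▸ h1 a ha
  obtain ⟨k, hk⟩ := hA.exists_card_eq
  rw [hk] at h2
  obtain ⟨B, hB⟩ := Sylow.exists_subgroup_card_pow_prime (G := A) 2 (n := 3)
    (hk ▸ pow_dvd_pow 2 ((Nat.pow_lt_pow_iff_right one_lt_two).1 h2))
  obtain ⟨g, -, hg⟩ := c.syl.exists_cj_le (hA.to_le (map_subtype_le B)) le_top
  exact ⟨_, hg, El.cj ⟨(card_map_of_injective A.subtype_injective).trans hB,
    fun a ha => sq a ▸ h1 a (map_subtype_le B ha)⟩ g⟩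
/-- It is enough to test `S` and the elements of odd order of `N(S)`. -/
theorem norm_le {X : Subgroup G} (h1 : c.S ≤ X) (h2 : ∀ m ∈ normalizer (c.S : Set G), Odd (orderOf m) → m ∈ X) :
    normalizer (c.S : Set G) ≤ X := fun g hg => by
  obtain ⟨m, k, hm, e⟩ := exists_two_part g
  have a1 : g ^ m ∈ X := h1 ((c.syl.eq_of_le (isPGroup_ext c.pS (pow_mem hg m) e) le_top (le_ext _ _)).le
    (self_mem_ext _ _))
  have a2 : g ^ 2 ^ k ∈ X := h2 _ (pow_mem hg _) (hm.of_dvd_nat (orderOf_dvd_of_pow_eq_one (by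
    rw [← pow_mul, mul_comm, pow_mul, e])))
  obtain ⟨i, j, e⟩ := Nat.isCoprime_iff_coprime.2 ((Nat.coprime_two_right.2 hm).pow_right k)
  have := X.mul_mem (zpow_mem a1 i) (zpow_mem a2 j)
  rwa [← zpow_natCast, ← zpow_natCast g, ← zpow_mul, ← zpow_mul, ← zpow_add, mul_comm, mul_comm _ j, e, zpow_one] at this
/-- Extremal conjugation to a central involution. -/
theorem extremal {z y : G} (hz : z ∈ c.S) (hc : Cz z c.S) (h : IsConj y z) {C : Subgroup G} (hC : IsPGroup 2 C)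
    (hy : Cz y C) : ∃ g : G, g * y * g⁻¹ = z ∧ cj g C ≤ c.S := by
  obtain ⟨g, hg⟩ := isConj_iff.1 h
  obtain ⟨k, -, h1, h2⟩ := exists_extremal (K := ⊤) (c.syl.mono (le_inf le_top fun r hr => Rec.mem_cen.2 (hc r hr).symm)
    le_top) (mem_top g) hg hC le_top fun r hr => (hy r hr).symm
  exact ⟨k, h1, cj_le_iff.2 h2⟩
/-- Burnside: central elements of `S` are fused in `N(S)`. -/
theorem burnside {z y : G} (hz : z ∈ c.S) (hc : Cz z c.S) (hy : y ∈ c.S) (hc' : Cz y c.S) (h : IsConj y z) :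
    ∃ g ∈ normalizer (c.S : Set G), g * y * g⁻¹ = z :=
  let ⟨g, h1, h2⟩ := c.extremal hz hc h c.pS hc'
  ⟨g, cj_eq_iff.1 (cj_eq_of_le h2), h1⟩

end Ctx

end Cfsg.Agent.GH
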